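import Cfsg.Agent.PJ.Mod2
import Cfsg.Agent.PJ.FrmB

/-!
# S3321: the frame 
Additive notation in `V0` (elementary abelian, normalised by `x, s, y`: `norm_V0`).
`n(v) = v + xv + x⁻¹v ∈ Z` (`norm3`).  `V1 = {v ∈ V0 | n v = 0}`, `W0 = V1 ⊓ C(s)`.
1. `v + n(v) ∈ V1`, `V1 ⊓ Z = 0`, so `V0 = V1 ⊕ Z`, `|V1| = 64`; `x, s, y` normalise `V1`.
2. `t(v) = v + sv ∈ W0`; `v = t(x⁻¹v) + x t(v)` for `v ∈ V1` (`s x⁻¹ = x s`); `W0 ⊓ xW0 = 0` (if
   `w, xw ∈ W0` then `xw = s x w = x⁻¹ w`, `w = xw + x⁻¹w = 0`).  So `|W0|² = 64`, `|W0| = 8`.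
3. `y` normalises `W0`; for `0 ≠ u ∈ W0` the orbit has 7 elements (`y_pow`, `cy`).  `u, yu, y²u`
   are a basis (else `⟨u,yu⟩` of order 4 is invariant), `y³u ∉ ⟨yu,y²u⟩`, `y³u ≠ u`,
   `y³u ≠ u+yu+y²u` (else `y⁴u = u`).  If `y³u = u + y²u` then `y⁻³u = u + y⁻¹u`: use `B.flip`
   (`V0, V, x, …` are definitionally unchanged).  So it suffices to treat `y³u = u + yu` (`fr_of`).
4. `β(v,v') = ⁅ρ v, v'⁆ ∈ Z` is biadditive on `V0`, trivial on `Z`, symmetric (conjugate by `r`),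
   `β(xv,v') = β(v,xv')` (`r x r = x⁻¹`), `β(sv,sv') = β(v,v')`, `β(yv,yv') = y β(v,v')`.
   `m = ρ v` and `φ m φ` (`φ = p0, p1`) are involutions whose product `⁅m,φ⁆ ∈ V0` is an involution,
   so `c(m,⁅m,φ⁆) = 0`: `β(v,v) = 0` (`theta`), `β(v,x⁻¹v) = 0` (`comm_p1`), `β(v,xv) = 0`.
   For `w,w' ∈ W0`: `β(xw,w') = β(sxw,sw') = β(x⁻¹w,w')`, so `β(w,w') = 0`;
   `B(w,w') = β(w,xw')` is symmetric, alternating, `β(xw,xw') = β(w,x⁻¹w') = B(w,w')`.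
5. `g(v) = ⁅ρ v, p0⁆ + v ∈ Z`; `g(v+v') = g v + g v' + β(v,v')`, `g(sv) = g v`, `g(yv) = y g(v)`.
   For `w ∈ W0`: `g(xw) = g(x⁻¹w) = g(w + xw) = g w + g(xw)`, so `g w = 0`: `ρw p0 ρw = p0 w`.
   `h(w) = g(xw)`, `h(w+w') = h w + h w' + B(w,w')`; `⁅ρ w, p1⁆ = x ⁅ρ(xw), p0⁆ x⁻¹ = w + xw + h w`.
6. `Z ≤ ⁅L,L⁆` (`gen`, `dec`) is generated by the `B(w,w')`, so by `z1,z2,z3`; `y z1 = z1+z2`,
   `y z2 = z3`, `y z3 = z1`, so `y³ = y² + 1` on `Z`.  `y³ h(u) = h(u+yu) = h u + y h u + z3` gives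
   `(y²+y) h(u) = z3 = (y²+y) z1`, so `y` fixes `h u + z1`, `h u = z1` (`cy`).
7. The `Acts` equations: `simp [Acts, E, E0, bw, A…]` leaves 11 equations each.  `ar1`, `ar2` follow
   from `ar0` by conjugating with `y` (`Acts.conj`; `lin Ay (lin Ar0 b) = lin Ar1 (lin Ay b)`), or directly.
-/

set_option autoImplicit false

namespace Cfsg.Agent.PJ

section
variable {G : Type*} [Group G] (a b c d e f z1 z2 z3 p q : G)

theorem fr_bwx : Ax.map (bw [a, b, c, d, e, f, z1, z2, z3, p, q]) =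
    [d, e, f, a * d, b * e, c * f, z1, z2, z3, q, p * q] := by
  simp only [Ax, List.map_cons, List.map_nil, bw, Nat.reduceMod, Nat.reduceDiv, Nat.reduceEqDiff,
    reduceIte, one_mul, mul_one, mul_assoc]
theorem fr_bws : As.map (bw [a, b, c, d, e, f, z1, z2, z3, p, q]) =
    [a, b, c, a * d, b * e, c * f, z1, z2, z3, p, p * q] := by
  simp only [As, List.map_cons, List.map_nil, bw, Nat.reduceMod, Nat.reduceDiv, Nat.reduceEqDiff,
    reduceIte, one_mul, mul_one, mul_assoc]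
theorem fr_bwy : Ay.map (bw [a, b, c, d, e, f, z1, z2, z3, p, q]) =
    [b, c, a * b, e, f, d * e, z1 * z2, z3, z1, p, q] := by
  simp only [Ay, List.map_cons, List.map_nil, bw, Nat.reduceMod, Nat.reduceDiv, Nat.reduceEqDiff,
    reduceIte, one_mul, mul_one, mul_assoc]
theorem fr_bw0 : Ar0.map (bw [a, b, c, d, e, f, z1, z2, z3, p, q]) =
    [a, b, c, d, e * z3, f * z2, z1, z2, z3, a * p, a * d * z1 * q] := by
  simp only [Ar0, List.map_cons, List.map_nil, bw, Nat.reduceMod, Nat.reduceDiv, Nat.reduceEqDiff,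
    reduceIte, one_mul, mul_one, mul_assoc]
theorem fr_bw1 : Ar1.map (bw [a, b, c, d, e, f, z1, z2, z3, p, q]) =
    [a, b, c, d * z3, e, f * z1, z1, z2, z3, b * p, b * e * (z1 * z2) * q] := by
  simp only [Ar1, List.map_cons, List.map_nil, bw, Nat.reduceMod, Nat.reduceDiv, Nat.reduceEqDiff,
    reduceIte, one_mul, mul_one, mul_assoc]
theorem fr_bw2 : Ar2.map (bw [a, b, c, d, e, f, z1, z2, z3, p, q]) =
    [a, b, c, d * z2, e * z1, f, z1, z2, z3, c * p, c * f * (z1 * z2 * z3) * q] := by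
  simp only [Ar2, List.map_cons, List.map_nil, bw, Nat.reduceMod, Nat.reduceDiv, Nat.reduceEqDiff,
    reduceIte, one_mul, mul_one, mul_assoc]
end

end Cfsg.Agent.PJ

namespace Cfsg.Agent.PJ.Base

open Subgroup
open scoped commutatorElement

variable {G : Type*} [Group G] [Finite G] (B : Base G)

include B in
/-- Steps 1-3. -/
theorem exists_u : ∃ B' : Base G, ∃ u ∈ B'.V0, u * B'.ξ u * (B'.x⁻¹ * u * B'.x) = 1 ∧
    B'.s * u = u * B'.s ∧ B'.y * B'.u2 u * B'.y⁻¹ = u * B'.u1 u ∧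
    ∀ v ∈ B'.V0, ∃ z ∈ B'.Z, v * z ∈ closure
      {c | c ∈ [u, B'.u1 u, B'.u2 u, B'.ξ u, B'.ξ (B'.u1 u), B'.ξ (B'.u2 u)]} := by
  obtain ⟨a, ha, h0⟩ := B.frA.exists_ne B.frA_card
  have hu := B.frι_mem a
  have hW := (B.frA_mem_W hu).1 ha
  have main : ∀ B' : Base G, ∀ hu : B.frι a ∈ B'.V0, B'.frMk _ hu ∈ B'.frA.W →
      B'.y * B'.u2 (B.frι a) * B'.y⁻¹ = B.frι a * B'.u1 (B.frι a) →
      ∀ v ∈ B'.V0, ∃ z ∈ B'.Z, v * z ∈ closure {c | c ∈ [B.frι a, B'.u1 (B.frι a), B'.u2 (B.frι a),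
        B'.ξ (B.frι a), B'.ξ (B'.u1 (B.frι a)), B'.ξ (B'.u2 (B.frι a))]} := by
    intro B' hu hw h3 v hv
    obtain ⟨z, hz, e⟩ := B'.frA.span6 B'.frA_card hw
      (fun h => h0 (B.frι_inj (congrArg B'.frι h))) (B'.frι_inj h3)
      (H := B'.frP (closure {c | c ∈ [B.frι a, B'.u1 (B.frι a), B'.u2 (B.frι a),
        B'.ξ (B.frι a), B'.ξ (B'.u1 (B.frι a)), B'.ξ (B'.u2 (B.frι a))]}))
      (subset_closure (.head _)) (subset_closure (.tail _ (.head _)))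
      (subset_closure (.tail _ (.tail _ (.head _))))
      (subset_closure (.tail _ (.tail _ (.tail _ (.head _)))))
      (subset_closure (.tail _ (.tail _ (.tail _ (.tail _ (.head _))))))
      (subset_closure (.tail _ (.tail _ (.tail _ (.tail _ (.tail _ (.head _))))))) (B'.frMk v hv)
    exact ⟨B'.frι z, hz, e⟩
  rcases B.frA.cases_u B.frA_card ha h0 with h | h
  · have h3 : B.y * B.u2 (B.frι a) * B.y⁻¹ = B.frι a * B.u1 (B.frι a) := congrArg B.frι h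
    exact ⟨B, _, hu, hW.1, hW.2, h3, main B hu ha h3⟩
  · have h5 : B.y * (B.y * (B.y * (B.y * (B.y * B.frι a * B.y⁻¹) * B.y⁻¹) * B.y⁻¹) * B.y⁻¹) *
        B.y⁻¹ = B.frι a * (B.y * B.frι a * B.y⁻¹) := congrArg B.frι h
    have h3 : B.flip.y * B.flip.u2 (B.frι a) * B.flip.y⁻¹ = B.frι a * B.flip.u1 (B.frι a) := by
      show B.y⁻¹ * (B.y⁻¹ * (B.y⁻¹ * B.frι a * B.y⁻¹⁻¹) * B.y⁻¹⁻¹) * B.y⁻¹⁻¹ =
        B.frι a * (B.y⁻¹ * B.frι a * B.y⁻¹⁻¹)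
      have e1 : B.y⁻¹ * (B.y⁻¹ * (B.y⁻¹ * B.frι a * B.y⁻¹⁻¹) * B.y⁻¹⁻¹) * B.y⁻¹⁻¹ =
          (B.y ^ 7)⁻¹ * (B.y⁻¹ * (B.y * (B.y * (B.y * (B.y * (B.y * B.frι a * B.y⁻¹) * B.y⁻¹) *
            B.y⁻¹) * B.y⁻¹) * B.y⁻¹) * B.y) * B.y ^ 7 := by
        simp only [pow_succ, pow_zero, inv_inv, one_mul, mul_inv_rev, mul_assoc,
          inv_mul_cancel_left, mul_inv_cancel_left]
      have hm : B.y⁻¹ * B.frι a * B.y⁻¹⁻¹ ∈ B.V0 := B.flip.fr_y_conj hu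
      rw [e1, h5, B.y_pow, B.V0_comm hu hm]; group
    exact ⟨B.flip, _, hu, hW.1, hW.2, h3, main B.flip hu ((B.flip.frA_mem_W hu).2 hW) h3⟩

/-- Steps 4-7. -/
theorem fr_of {u : G} (hu : u ∈ B.V0) (h1 : u * B.ξ u * (B.x⁻¹ * u * B.x) = 1)
    (h2 : B.s * u = u * B.s) (h3 : B.y * B.u2 u * B.y⁻¹ = u * B.u1 u)
    (h4 : ∀ v ∈ B.V0, ∃ z ∈ B.Z, v * z ∈ closure
      {c | c ∈ [u, B.u1 u, B.u2 u, B.ξ u, B.ξ (B.u1 u), B.ξ (B.u2 u)]}) : B.Fr u := by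
  obtain ⟨a, rfl⟩ : ∃ a, B.frι a = u := ⟨B.frMk u hu, rfl⟩
  have ha : a ∈ B.frB.W := (B.frA_mem_W hu).2 ⟨h1, h2⟩
  have ha1 := B.frB.Y_mem_W ha
  have ha2 := B.frB.Y_mem_W ha1
  have h3' : B.frB.Y (B.frB.Y (B.frB.Y a)) = a + B.frB.Y a := B.frι_inj h3
  have h4' : ∀ H : AddSubgroup B.FV, a ∈ H → B.frB.Y a ∈ H → B.frB.Y (B.frB.Y a) ∈ H →
      B.frB.X a ∈ H → B.frB.X (B.frB.Y a) ∈ H → B.frB.X (B.frB.Y (B.frB.Y a)) ∈ H →
      ∀ v, ∃ z ∈ B.frB.Z, v + z ∈ H := by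
    intro H c1 c2 c3 c4 c5 c6 v
    obtain ⟨z, hz, e⟩ := h4 _ (B.frι_mem v)
    refine ⟨B.frMk z (B.Z_le_V0 hz), hz, B.frQ_mem.1 ((closure_le (B.frQ H)).2 ?_ e)⟩
    intro c hc
    simp only [Set.mem_setOf_eq, List.mem_cons, List.not_mem_nil, or_false] at hc
    rcases hc with rfl | rfl | rfl | rfl | rfl | rfl
    exacts [B.frQ_mem.2 c1, B.frQ_mem.2 c2, B.frQ_mem.2 c3, B.frQ_mem.2 c4, B.frQ_mem.2 c5,
      B.frQ_mem.2 c6]
  have hE0 : B.E0 (B.frι a) = [B.frι a, B.frι (B.frB.Y a), B.frι (B.frB.Y (B.frB.Y a)),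
      B.frι (B.frB.X a), B.frι (B.frB.X (B.frB.Y a)), B.frι (B.frB.X (B.frB.Y (B.frB.Y a))),
      B.frι (B.frB.β (B.frB.Y a) (B.frB.X (B.frB.Y (B.frB.Y a)))),
      B.frι (B.frB.β a (B.frB.X (B.frB.Y (B.frB.Y a)))),
      B.frι (B.frB.β a (B.frB.X (B.frB.Y a)))] := rfl
  have hE : B.E (B.frι a) = [B.frι a, B.frι (B.frB.Y a), B.frι (B.frB.Y (B.frB.Y a)),
      B.frι (B.frB.X a), B.frι (B.frB.X (B.frB.Y a)), B.frι (B.frB.X (B.frB.Y (B.frB.Y a))),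
      B.frι (B.frB.β (B.frB.Y a) (B.frB.X (B.frB.Y (B.frB.Y a)))),
      B.frι (B.frB.β a (B.frB.X (B.frB.Y (B.frB.Y a)))),
      B.frι (B.frB.β a (B.frB.X (B.frB.Y a))), B.p0, B.p1] := rfl
  have mV0 : ∀ c ∈ B.E0 (B.frι a), c ∈ B.V0 := by
    rw [hE0]
    simp only [List.mem_cons, List.not_mem_nil, or_false, forall_eq_or_imp, forall_eq,
      frι_mem, and_self]
  have hZ : B.Z = closure {c | c ∈ [B.z1 (B.frι a), B.z2 (B.frι a), B.z3 (B.frι a)]} := by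
    refine le_antisymm (fun z hz => ?_) ((closure_le _).2 fun c hc => ?_)
    · exact B.frB.Z_le ha h4'
        (H := B.frP (closure {c | c ∈ [B.z1 (B.frι a), B.z2 (B.frι a), B.z3 (B.frι a)]}))
        (subset_closure (.head _)) (subset_closure (.tail _ (.head _)))
        (subset_closure (.tail _ (.tail _ (.head _)))) (x := B.frMk z (B.Z_le_V0 hz)) hz
    · simp only [Set.mem_setOf_eq, List.mem_cons, List.not_mem_nil, or_false] at hc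
      rcases hc with rfl | rfl | rfl
      exacts [B.frβ_Z (B.frB.Y a) (B.frB.X (B.frB.Y (B.frB.Y a))),
        B.frβ_Z a (B.frB.X (B.frB.Y (B.frB.Y a))), B.frβ_Z a (B.frB.X (B.frB.Y a))]
  have hV0 : B.V0 = closure {c | c ∈ B.E0 (B.frι a)} := by
    refine le_antisymm (fun v hv => ?_) ((closure_le _).2 mV0)
    obtain ⟨z, hz, e⟩ := h4 v hv
    rw [hZ] at hz
    refine (mul_mem_cancel_right (closure_mono (fun c hc => ?_) hz)).1
      (closure_mono (fun c hc => ?_) e)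
    · exact List.mem_append_right [_, _, _, _, _, _] hc
    · exact List.mem_append_left [_, _, _] hc
  have hV : B.V = closure {c | c ∈ B.E (B.frι a)} := by
    rw [V, hV0, ← Subgroup.closure_union]
    congr 1
    ext c
    simp only [E, Set.mem_union, Set.mem_setOf_eq, List.mem_append, List.mem_cons,
      List.not_mem_nil, or_false, Set.mem_insert_iff, Set.mem_singleton_iff]
  have hea : PJ.EA (B.E (B.frι a)) := by
    have rel := B.fr_rel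
    have mE : ∀ c ∈ B.E (B.frι a), c ∈ B.V0 ∨ c = B.p0 ∨ c = B.p1 := fun c hc => by
      rcases List.mem_append.1 hc with h | h
      · exact Or.inl (mV0 c h)
      · exact Or.inr (by simpa using h)
    intro c hc
    refine ⟨?_, fun d hd => ?_⟩
    · rcases mE c hc with h | rfl | rfl
      exacts [B.V0_sq h, rel.2.2.2.2.2.2.2.2.2.2.1, rel.2.2.2.2.2.2.2.2.2.2.2.1]
    · rcases mE c hc with h | rfl | rfl <;> rcases mE d hd with h' | rfl | rfl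
      exacts [B.V0_comm h h', (B.p0_comm h).symm, (B.p1_comm h).symm, B.p0_comm h', rfl,
        rel.2.2.2.2.2.2.2.1, B.p1_comm h', rel.2.2.2.2.2.2.2.1.symm, rfl]
  have cx : ∀ b, B.x * B.frι b * B.x⁻¹ = B.frι (B.frB.X b) := fun _ => rfl
  have cs : ∀ b, B.s * B.frι b * B.s⁻¹ = B.frι (B.frB.S b) := fun _ => rfl
  have cy : ∀ b, B.y * B.frι b * B.y⁻¹ = B.frι (B.frB.Y b) := fun _ => rfl
  have cr : ∀ b c, B.ρ (B.frι b) * B.frι c * (B.ρ (B.frι b))⁻¹ = B.frι (c + B.frB.β b c) :=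
    fun b c => by
      rw [add_comm, frι_add]
      show _ = ⁅B.ρ (B.frι b), B.frι c⁆ * B.frι c
      simp only [commutatorElement_def]; group
  have cr0 : ∀ b, B.ρ (B.frι b) * B.p0 * (B.ρ (B.frι b))⁻¹ = B.frι (B.frB.g b + b) * B.p0 :=
    fun b => by
      rw [show B.frι (B.frB.g b + b) = _ from B.frg_add b]
      simp only [commutatorElement_def]; group
  have cr1 : ∀ b, B.ρ (B.frι b) * B.p1 * (B.ρ (B.frι b))⁻¹ =
      B.frι (B.frB.X (B.frB.g (B.frB.X b) + B.frB.X b)) * B.p1 := fun b => by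
    rw [show B.frι (B.frB.X (B.frB.g (B.frB.X b) + B.frB.X b)) = _ from B.fr_p1 b]
    simp only [commutatorElement_def]; group
  have βZ : ∀ b c, B.frB.β b c ∈ B.frB.Z := B.frβ_Z
  have xβ : ∀ b c, B.frB.X (B.frB.β b c) = B.frB.β b c := fun b c => B.frB.XZ _ (βZ b c)
  have sβ : ∀ b c, B.frB.S (B.frB.β b c) = B.frB.β b c := fun b c =>
    B.frι_inj (B.fr_σ_fix ps (βZ b c))
  have ββ : ∀ d b c, B.frB.β d (B.frB.β b c) = 0 := fun d b c => B.frB.βz d _ (βZ b c)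
  have sp0 : B.s * B.p0 * B.s⁻¹ = B.p0 := by rw [B.fr_rel.2.2.2.2.2.1, mul_inv_cancel_right]
  have yp0 : B.y * B.p0 * B.y⁻¹ = B.p0 := by
    rw [show B.y * B.p0 = B.p0 * B.y from (B.σy pf).symm, mul_inv_cancel_right]
  have yp1 : B.y * B.p1 * B.y⁻¹ = B.p1 := by
    rw [show B.y * B.p1 = B.p1 * B.y from (B.σy pg).symm, mul_inv_cancel_right]
  have e1 := B.frB.Y_z1 ha h3'
  have e2 := B.frB.Y_z2 ha h3'
  have e3 := B.frB.Y_z3 (u := a)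
  have g0 := B.frB.g_X ha h3' h4'
  have g1 := congrArg B.frB.Y g0
  rw [← B.frB.gY, B.frB.YX, e1] at g1
  have g2 := congrArg B.frB.Y g1
  rw [← B.frB.gY, B.frB.YX, map_add, e1, e2] at g2
  have u1e : B.u1 (B.frι a) = B.frι (B.frB.Y a) := rfl
  have u2e : B.u2 (B.frι a) = B.frι (B.frB.Y (B.frB.Y a)) := rfl
  refine ⟨hea, hV0, hV, hZ, ?_, ?_, ?_, ?_, ?_, ?_⟩
  · rw [hE, Acts, fr_bwx]
    simp only [List.map_cons, List.map_nil, cx, xβ, B.fr_rel.1, B.fr_rel.2.1, B.frB.XX ha,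
      B.frB.XX ha1, B.frB.XX ha2, frι_add]
  · rw [hE, Acts, fr_bws]
    simp only [List.map_cons, List.map_nil, cs, sβ, sp0, B.fr_rel.2.2.2.2.2.2.1, B.frB.SXw ha,
      B.frB.SXw ha1, B.frB.SXw ha2, ha.2, ha1.2, ha2.2, frι_add]
  · rw [hE, Acts, fr_bwy]
    simp only [List.map_cons, List.map_nil, cy, yp0, yp1, e1, e2, e3, h3', B.frB.YX, map_add,
      frι_add]
  · rw [hE, Acts, fr_bw0]
    simp only [List.map_cons, List.map_nil, cr, cr0, cr1, ββ, g0, B.frB.g_W ha, B.frB.β_WW ha ha,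
      B.frB.β_WW ha ha1, B.frB.β_WW ha ha2, B.frB.β_aX, add_zero, zero_add, ← frι_add]
    rw [map_add, xβ, B.frB.XX ha, add_comm (B.frB.β _ _)]
  · rw [hE, u1e, Acts, fr_bw1]
    simp only [List.map_cons, List.map_nil, cr, cr0, cr1, ββ, g1, B.frB.g_W ha1, B.frB.β_WW ha1 ha,
      B.frB.β_WW ha1 ha1, B.frB.β_WW ha1 ha2, B.frB.β_aX, B.frB.β_symX (B.frB.Y a) a, add_zero,
      zero_add, ← frι_add]
    rw [map_add, map_add, xβ, xβ, B.frB.XX ha1, add_comm (B.frB.β _ _ + _)]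
  · rw [hE, u2e, Acts, fr_bw2]
    simp only [List.map_cons, List.map_nil, cr, cr0, cr1, ββ, g2, B.frB.g_W ha2, B.frB.β_WW ha2 ha,
      B.frB.β_WW ha2 ha1, B.frB.β_WW ha2 ha2, B.frB.β_aX,
      B.frB.β_symX (B.frB.Y (B.frB.Y a)) a, B.frB.β_symX (B.frB.Y (B.frB.Y a)) (B.frB.Y a),
      add_zero, zero_add, ← frι_add]
    rw [map_add, map_add, map_add, xβ, xβ, xβ, B.frB.XX ha2, add_comm (B.frB.β _ _ + _ + _)]

include B in
theorem exists_fr : ∃ B' : Base G, ∃ u, B'.Fr u := by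
  obtain ⟨B', u, hu, h1, h2, h3, h4⟩ := B.exists_u
  exact ⟨B', u, B'.fr_of hu h1 h2 h3 h4⟩

end Cfsg.Agent.PJ.Base
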