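import Cfsg.Agent.PJ.Mod1
import Cfsg.Agent.S1897

/-!
# S3321: the subgroup `V = V0 F` and `Y = N_K(V)`
`S1897.simple_SL32`, `S1897.card_SL32` (check the namespace) give simplicity and order of `L32`.
-/

set_option autoImplicit false

namespace Cfsg.Agent.PJ.Base

open Subgroup
open scoped commutatorElement

variable {G : Type*} [Group G] [Finite G] (B : Base G)

namespace M2

/-- The four-group in `S5`. -/
def FF : List S5 := [1, pf, pg, pf * pg]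

theorem FF_mul : ∀ a ∈ FF, ∀ b ∈ FF, b * a ∈ FF := by unfold FF; decide +kernel
theorem FF_sq : ∀ a ∈ FF, a * a = 1 := by unfold FF; decide +kernel
theorem FF_card : FF.toFinset.card = 4 := by unfold FF; decide +kernel
theorem FF_four : ∀ a ∈ FF, a 4 = 4 := by unfold FF; decide +kernel
theorem FF_norm : ∀ a : S5, a * pf * a⁻¹ ∈ FF → a 4 = 4 := by unfold FF; decide +kernel
theorem FF_inter : ∀ a : S5, a 4 ≠ 4 → ∀ φ ∈ FF, (a * φ * a⁻¹) 4 = 4 → φ = 1 := by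
  unfold FF; decide +kernel
theorem FF_word : ∀ a : S5, a 4 = 4 → ∃ φ ∈ FF, ∃ b ∈ [1, px, px * px], ∃ c ∈ [1, ps],
    a = φ * b * c := by unfold FF; decide +kernel

/-- Order three, decidably. -/
def O3 (a : S5) : Prop := a * a * a = 1 ∧ a ≠ 1

instance (a : S5) : Decidable (O3 a) := by unfold O3; infer_instance

theorem FF_three : ∀ a : S5, a ∈ FF ∨ O3 a ∨ O3 (a * (px * a * px⁻¹)) ∨
    ∃ φ ∈ FF, O3 (a * pf * a⁻¹ * φ) := by unfold FF; decide +kernel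

theorem px_four : px 4 = 4 ∧ pr 4 ≠ 4 ∧ O3 px := by decide +kernel

theorem one_mem_FF : (1 : S5) ∈ FF := by simp [FF]
theorem pf_mem : pf ∈ FF := by simp [FF]
theorem pg_mem : pg ∈ FF := by simp [FF]

theorem FF_inv {a : S5} (ha : a ∈ FF) : a⁻¹ = a := inv_eq_of_mul_eq_one_right (FF_sq a ha)

theorem σ_comm {a : S5} (ha : a ∈ FF) {v : G} (hv : v ∈ B.V0) : B.σ a * v = v * B.σ a := by
  have h0 : B.σ pf * v = v * B.σ pf := B.p0_comm hv
  have h1 : B.σ pg * v = v * B.σ pg := B.p1_comm hv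
  simp only [FF, List.mem_cons, List.not_mem_nil, or_false] at ha
  rcases ha with rfl | rfl | rfl | rfl
  · rw [map_one, one_mul, mul_one]
  · exact h0
  · exact h1
  · rw [map_mul, mul_assoc, h1, ← mul_assoc, h0, mul_assoc]

omit [Finite G] in
theorem V0_le_V : B.V0 ≤ B.V := le_sup_left

omit [Finite G] in
theorem σ_mem_V {a : S5} (ha : a ∈ FF) : B.σ a ∈ B.V := by
  have h0 : B.σ pf ∈ B.V := mem_sup_right (subset_closure (Or.inl rfl))
  have h1 : B.σ pg ∈ B.V := mem_sup_right (subset_closure (Or.inr rfl))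
  simp only [FF, List.mem_cons, List.not_mem_nil, or_false] at ha
  rcases ha with rfl | rfl | rfl | rfl
  · rw [map_one]; exact one_mem _
  · exact h0
  · exact h1
  · rw [map_mul]; exact mul_mem h0 h1

/-- `V0 F` as a set. -/
def T : Subgroup G where
  carrier := {g | ∃ a ∈ FF, g * B.σ a ∈ B.V0}
  one_mem' := ⟨1, one_mem_FF, by rw [map_one, mul_one]; exact one_mem _⟩
  mul_mem' := by
    rintro g h ⟨a, ha, hg⟩ ⟨b, hb, hh⟩
    refine ⟨b * a, FF_mul a ha b hb, ?_⟩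
    have e : g * h * B.σ (b * a) = g * B.σ a * (h * B.σ b) := by
      rw [map_mul, mul_assoc g (B.σ a), σ_comm B ha hh]; group
    rw [e]; exact mul_mem hg hh
  inv_mem' := by
    rintro g ⟨a, ha, hg⟩
    refine ⟨a, ha, ?_⟩
    have h1 := σ_comm B ha (inv_mem hg)
    have h2 : B.σ a * B.σ a = 1 := by rw [← map_mul, FF_sq a ha, map_one]
    have h3 : (B.σ a)⁻¹ = B.σ a := inv_eq_of_mul_eq_one_right h2
    have e : g⁻¹ * B.σ a = (g * B.σ a)⁻¹ := by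
      rw [mul_inv_rev, ← mul_assoc, mul_inv_cancel, one_mul] at h1
      rw [h1, mul_assoc, h2, mul_one, mul_inv_rev]
    rw [e]; exact inv_mem hg

theorem mem_V' {g : G} : g ∈ B.V ↔ ∃ a ∈ FF, g * B.σ a ∈ B.V0 := by
  refine ⟨fun hg => ?_, fun ⟨a, ha, h⟩ => ?_⟩
  · have : B.V ≤ T B := by
      refine sup_le (fun v hv => ⟨1, one_mem_FF, by rwa [map_one, mul_one]⟩) ((closure_le _).2 ?_)
      rintro _ (rfl | rfl)
      · exact ⟨pf, pf_mem, by
          rw [p0, ← map_mul, FF_sq _ pf_mem, map_one]; exact one_mem _⟩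
      · exact ⟨pg, pg_mem, by
          rw [p1, ← map_mul, FF_sq _ pg_mem, map_one]; exact one_mem _⟩
    exact this hg
  · have := mul_mem (V0_le_V B h) (inv_mem (σ_mem_V B ha))
    rwa [mul_inv_cancel_right] at this

omit [Finite G] in
theorem V0_le_L : B.V0 ≤ B.L := fun _ h => h.1

/-- The section, into `K`. -/
def sK (a : S5) : B.K := ⟨B.σ a, B.σ_mem a⟩

omit [Finite G] in
theorem θ_sK (a : S5) : B.θ (sK B a) = (a, 1) := B.θσ a

omit [Finite G] in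
theorem coe_sK (a : S5) : (sK B a : G) = B.σ a := rfl

omit [Finite G] in
theorem card_K : Nat.card B.K = 2 ^ 15 * (120 * 168) := by
  have h1 := B.θ.ker.card_mul_index
  have h2 : B.θ.ker = B.L.subgroupOf B.K := by
    ext k; rw [MonoidHom.mem_ker, B.ker, mem_subgroupOf]
  rw [index_ker, MonoidHom.range_eq_top.2 B.surj, card_top, Nat.card_prod, S1897.card_SL32,
    Nat.card_perm, Nat.card_fin, h2, Nat.card_congr (subgroupOfEquivOfLe B.L_le).toEquiv,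
    B.card_L] at h1
  rw [← h1]; rfl

omit [Finite G] in
theorem Z_cen {z l : G} (hz : z ∈ B.Z) (hl : l ∈ B.L) : l * z = z * l :=
  (B.cen z (B.Z_le hz)).1 hz l hl

/-- The elements of `S5` acting trivially on `V0/Z`. -/
def N : Subgroup S5 where
  carrier := {b | ∀ v ∈ B.V0, ⁅v, B.σ b⁆ ∈ B.Z}
  one_mem' := fun v _ => by rw [map_one, commutatorElement_one_right]; exact one_mem _
  mul_mem' := fun {a b} ha hb v hv => by
    have e : ⁅v, B.σ (a * b)⁆ = ⁅v, B.σ a⁆ * (B.σ a * ⁅v, B.σ b⁆ * (B.σ a)⁻¹) := by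
      simp only [map_mul, commutatorElement_def]; group
    rw [e]; exact mul_mem (ha v hv) (B.conj_Z (B.σ_mem a) (hb v hv))
  inv_mem' := fun {a} ha v hv => by
    have e : ⁅v, B.σ a⁻¹⁆ = (B.σ a)⁻¹ * ⁅v, B.σ a⁆⁻¹ * (B.σ a)⁻¹⁻¹ := by
      simp only [map_inv, commutatorElement_def]; group
    rw [e]; exact B.conj_Z (inv_mem (B.σ_mem a)) (inv_mem (ha v hv))

theorem N_conj {a b : S5} (hb : b 4 = 4) (ha : a ∈ N B) : b * a * b⁻¹ ∈ N B := fun v hv => by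
  have hn : B.σ b ∈ normalizer (B.V0 : Set G) := B.norm_V0 (sK B b) (by rw [θ_sK]; exact hb)
  have h1 : (B.σ b)⁻¹ * v * (B.σ b)⁻¹⁻¹ ∈ B.V0 := (mem_normalizer_iff.1 (inv_mem hn) v).1 hv
  have e : ⁅v, B.σ (b * a * b⁻¹)⁆ =
      B.σ b * ⁅(B.σ b)⁻¹ * v * (B.σ b)⁻¹⁻¹, B.σ a⁆ * (B.σ b)⁻¹ := by
    simp only [map_mul, map_inv, commutatorElement_def]; group
  rw [e]; exact B.conj_Z (B.σ_mem b) (ha _ h1)

theorem N_FF {a : S5} (ha : a ∈ FF) : a ∈ N B := fun v hv => by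
  rw [commutatorElement_eq_one_iff_mul_comm.2 (σ_comm B ha hv).symm]; exact one_mem _

theorem N_three {a : S5} (ha : a ∈ N B) : ¬ O3 a := fun h => by
  have h1 : B.V0 ≤ B.Z := fun v hv => B.fix_mod (orderOf_three h.1 h.2) hv.1 (ha v hv)
  have h2 := card_le_of_le h1
  rw [B.card_V0, B.card_Z] at h2
  omega

theorem N_le {a : S5} (ha : a ∈ N B) : a ∈ FF := by
  rcases FF_three a with h | h | h | ⟨φ, hφ, h⟩
  · exact h
  · exact absurd h (N_three B ha)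
  · exact absurd h (N_three B (mul_mem ha (N_conj B px_four.1 ha)))
  · exact absurd h (N_three B (mul_mem (mul_mem (mul_mem ha (N_FF B pf_mem)) (inv_mem ha))
      (N_FF B hφ)))

omit [Finite G] in
/-- An element of `K` which inverts `x`. -/
theorem J_aux (g : B.K) (h1 : (B.θ g).1 = 1) (a : S5) :
    g * B.σ a * (g : G)⁻¹ * (B.σ a)⁻¹ ∈ B.L := by
  refine (B.ker (g * sK B a * g⁻¹ * (sK B a)⁻¹)).1 ?_
  rw [map_mul, map_mul, map_mul, map_inv, map_inv, θ_sK]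
  ext1
  · simp [h1]
  · simp

omit [Finite G] in
theorem J_inv (g : B.K) (h1 : (B.θ g).1 = 1) (h : g * B.x = B.x * g) {a : S5}
    (ha : a * px * a⁻¹ = px⁻¹) : g * B.σ a * (g : G)⁻¹ * (B.σ a)⁻¹ ∈ B.Z := by
  refine (B.cx px (orderOf_three px_four.2.2.1 px_four.2.2.2) _ (J_aux B g h1 a)).1 ?_
  have e1 : B.σ a * B.σ px * (B.σ a)⁻¹ = (B.σ px)⁻¹ := by
    rw [← map_inv, ← map_mul, ← map_mul, ha, map_inv]
  have e2 : (g : G) * B.σ px * (g : G)⁻¹ = B.σ px := by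
    rw [show (g : G) * B.σ px = B.σ px * g from h, mul_inv_cancel_right]
  generalize B.σ a = t at e1
  generalize B.σ px = x at e1 e2
  generalize (g : G) = k at e2
  have e5 : t * x⁻¹ * t⁻¹ = x := by
    calc t * x⁻¹ * t⁻¹ = (t * x * t⁻¹)⁻¹ := by group
      _ = x := by rw [e1, inv_inv]
  have e3 : t⁻¹ * x * t = x⁻¹ := by
    calc t⁻¹ * x * t = t⁻¹ * (t * x⁻¹ * t⁻¹) * t := by rw [e5]
      _ = x⁻¹ := by group
  calc x * (k * t * k⁻¹ * t⁻¹) = (k * x * k⁻¹) * (k * t * k⁻¹ * t⁻¹) := by rw [e2]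
    _ = (k * (t * x⁻¹ * t⁻¹) * k⁻¹) * (k * t * k⁻¹ * t⁻¹) := by rw [e5]
    _ = k * t * x⁻¹ * k⁻¹ * t⁻¹ := by group
    _ = k * t * k⁻¹ * (k * x * k⁻¹)⁻¹ * t⁻¹ := by group
    _ = k * t * k⁻¹ * (t⁻¹ * x * t) * t⁻¹ := by rw [e2, e3]
    _ = k * t * k⁻¹ * t⁻¹ * x := by group

end M2

open M2

/-- The right-hand side is a subgroup (`p0_comm`, `p1_comm`, `perm_rel`). -/
theorem mem_V {g : G} : g ∈ B.V ↔ g ∈ B.V0 ∨ g * B.p0 ∈ B.V0 ∨ g * B.p1 ∈ B.V0 ∨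
    g * (B.p0 * B.p1) ∈ B.V0 := by
  rw [mem_V']
  simp only [FF, List.mem_cons, List.not_mem_nil, or_false, exists_eq_or_imp, exists_eq_left,
    map_one, mul_one, map_mul]
  rfl

theorem V_le_K : B.V ≤ B.K := by
  intro g hg
  obtain ⟨a, -, h⟩ := (mem_V' B).1 hg
  have := mul_mem (B.L_le h.1) (inv_mem (B.σ_mem a))
  rwa [mul_inv_cancel_right] at this

theorem V_sq {v : G} (hv : v ∈ B.V) : v * v = 1 := by
  obtain ⟨a, ha, h⟩ := (mem_V' B).1 hv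
  have h1 := B.V0_sq h
  have h2 := σ_comm B ha h
  have h3 : B.σ a * B.σ a = 1 := by rw [← map_mul, FF_sq a ha, map_one]
  rw [mul_assoc, h2, mul_assoc v, h3, mul_one] at h1
  exact h1

theorem θ_V (k : B.K) (hk : (k : G) ∈ B.V) : (B.θ k).1 ∈ [1, pf, pg, pf * pg] ∧ (B.θ k).2 = 1 ∧
    ((B.θ k).1 = 1 → (k : G) ∈ B.V0) := by
  obtain ⟨a, ha, h⟩ := (mem_V' B).1 hk
  have h1 : B.θ (k * sK B a) = 1 := (B.ker _).2 h.1
  rw [map_mul, θ_sK, mul_eq_one_iff_eq_inv] at h1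
  have h2 : (B.θ k).1 = a := by rw [h1]; exact FF_inv ha
  refine ⟨h2 ▸ ha, by rw [h1]; exact inv_one, fun h3 => ?_⟩
  rwa [← h2, h3, map_one, mul_one] at h

theorem V_inf_L {v : G} (hv : v ∈ B.V) (hl : v ∈ B.L) : v ∈ B.V0 := by
  refine (B.θ_V ⟨v, B.L_le hl⟩ hv).2.2 ?_
  rw [(B.ker ⟨v, B.L_le hl⟩).2 hl]; rfl

/-- E.g. `θ` restricted to `V` has kernel `V0` and image of order 4. -/
theorem card_V : Nat.card B.V = 2048 := by
  let φ : B.V →* S5 := ((MonoidHom.fst _ _).comp B.θ).comp (inclusion B.V_le_K)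
  have h1 := φ.ker.card_mul_index
  have h2 : φ.ker = B.V0.subgroupOf B.V := by
    ext v
    rw [MonoidHom.mem_ker, mem_subgroupOf]
    refine ⟨fun h => (B.θ_V (inclusion B.V_le_K v) v.2).2.2 h, fun h => ?_⟩
    change (B.θ (inclusion B.V_le_K v)).1 = 1
    rw [(B.ker (inclusion B.V_le_K v)).2 h.1]; rfl
  have h3 : Nat.card φ.range = 4 := by
    rw [← FF_card]
    refine Nat.subtype_card _ fun a => ?_
    rw [List.mem_toFinset]
    refine ⟨fun ha => ⟨⟨B.σ a, σ_mem_V B ha⟩, congrArg Prod.fst (B.θσ a)⟩, ?_⟩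
    rintro ⟨v, rfl⟩
    exact (B.θ_V (inclusion B.V_le_K v) v.2).1
  rw [index_ker, h3, h2, Nat.card_congr (subgroupOfEquivOfLe (V0_le_V B)).toEquiv,
    B.card_V0] at h1
  rw [← h1]

/-- `C_K(Z) ⊴ K`; its image in the simple group `L32` is normal; if it is everything then
`y ∈ C_K(Z) · L σ(S5) = C_K(Z)` (`σ_Z`, `cen`), against `cy`. -/
theorem θ2_of_cent (k : B.K) (h : ∀ z ∈ B.Z, k * z = z * k) : (B.θ k).2 = 1 := by
  let C : Subgroup B.K := (centralizer (B.Z : Set G)).subgroupOf B.K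
  have hC : ∀ c : B.K, c ∈ C ↔ ∀ z ∈ B.Z, z * c = c * z := fun c => Iff.rfl
  have hn : C.Normal := ⟨fun c hc g => (hC _).2 fun z hz => by
    have h1 := (hC c).1 hc _ (B.conj_Z (inv_mem g.2) hz)
    change z * ((g : G) * c * (g : G)⁻¹) = (g : G) * c * (g : G)⁻¹ * z
    calc z * ((g : G) * c * (g : G)⁻¹) = g * ((g : G)⁻¹ * z * (g : G)⁻¹⁻¹ * c) * (g : G)⁻¹ := by
          group
      _ = _ := by rw [h1]; group⟩
  let φ : B.K →* L32 := (MonoidHom.snd _ _).comp B.θ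
  have hφ : Function.Surjective φ := Prod.snd_surjective.comp B.surj
  have := S1897.simple_SL32
  rcases (hn.map φ hφ).eq_bot_or_eq_top with h1 | h1
  · exact (map_eq_bot_iff C).1 h1 ((hC k).2 fun z hz => (h z hz).symm)
  · exfalso
    obtain ⟨c, hc, e⟩ : φ ⟨B.y, B.y_mem⟩ ∈ C.map φ := h1 ▸ mem_top _
    have h2 : ((⟨B.y, B.y_mem⟩ * c⁻¹ * sK B (B.θ c).1 : B.K) : G) ∈ B.L := by
      refine (B.ker _).1 ?_
      rw [map_mul, map_mul, map_inv, θ_sK]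
      ext1
      · simp [B.θy]
      · have e' : (B.θ c).2 = (B.θ ⟨B.y, B.y_mem⟩).2 := e
        simp [e']
    have h3 : (⟨B.y, B.y_mem⟩ : B.K) ∈ C := by
      have h4 : (⟨B.y, B.y_mem⟩ * c⁻¹ * sK B (B.θ c).1 : B.K) ∈ C :=
        (hC _).2 fun z hz => (Z_cen B hz h2).symm
      have h5 : sK B (B.θ c).1 ∈ C := (hC _).2 fun z hz => (B.σ_Z _ hz).symm
      have := mul_mem (mul_mem h4 (inv_mem h5)) hc
      rwa [mul_inv_cancel_right, inv_mul_cancel_right] at this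
    have h6 : B.Z = ⊥ := (eq_bot_iff_forall _).2 fun z hz =>
      B.cy z (B.Z_le hz) ((hC _).1 h3 z hz).symm
    have h7 := B.card_Z
    rw [h6, card_bot] at h7
    omega

/-- `c` centralises `Z`, so `c ∈ K`, `c = l σ(a)`.  `N = {a | ∀ v ∈ V0, ⁅v, σ a⁆ ∈ Z}` is a subgroup
of `S5` containing `a, pf, pg`, closed under conjugation by the `b` with `b 4 = 4` (`norm_V0`), and
has no element of order 3 (`fix_mod`, `card_V0`).  `decide +kernel`: every `a ∉ F` has an element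
of order 3 among `a`, `a (b a b⁻¹)` (`b 4 = 4`), `a pf a⁻¹ φ` (`φ ∈ F`).  So `a ∈ F`, `σ a`
centralises `V0`, `l ∈ V0` by `cent_L`. -/
theorem cent_V0 {c : G} (h : ∀ v ∈ B.V0, c * v = v * c) : c ∈ B.V := by
  have hz : ∀ z ∈ B.Z, c * z = z * c := fun z hz => h z (B.Z_le_V0 hz)
  have hc : c ∈ B.K := by
    rw [B.K_eq]
    exact centralizer_le_normalizer _ fun z hz' => (hz z hz').symm
  set a := (B.θ ⟨c, hc⟩).1 with ha
  have h2 := B.θ2_of_cent ⟨c, hc⟩ hz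
  have hl : c * (B.σ a)⁻¹ ∈ B.L := by
    refine (B.ker (⟨c, hc⟩ * (sK B a)⁻¹)).1 ?_
    rw [map_mul, map_inv, θ_sK]
    ext1
    · simp [ha]
    · simp [h2]
  have hN : a ∈ N B := fun v hv => by
    have e : ⁅v, B.σ a⁆ = ⁅v, (c * (B.σ a)⁻¹)⁻¹⁆ * ((c * (B.σ a)⁻¹)⁻¹ * ⁅v, c⁆ * (c * (B.σ a)⁻¹)) := by
      simp only [commutatorElement_def]; group
    rw [e, commutatorElement_eq_one_iff_mul_comm.2 (h v hv).symm, mul_one, inv_mul_cancel, mul_one]
    exact B.comm _ hv.1 _ (inv_mem hl)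
  have hF := N_le B hN
  rw [← map_inv, FF_inv hF] at hl
  refine (mem_V' B).2 ⟨a, hF, B.cent_L hl fun v hv => ?_⟩
  rw [mul_assoc, σ_comm B hF hv, ← mul_assoc, h v hv, mul_assoc]

theorem cent_V : centralizer (B.V : Set G) ≤ B.V := by
  exact fun c hc => B.cent_V0 fun v hv => (hc v (V0_le_V B hv)).symm

/-- `←`: `k` normalises `V0` and `V = C(V0)`.  `→`: `θ_V` for `k p0 k⁻¹`, `k p1 k⁻¹`, `decide`. -/
theorem norm_V (k : B.K) : (k : G) ∈ normalizer (B.V : Set G) ↔ (B.θ k).1 4 = 4 := by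
  refine ⟨fun h => FF_norm _ ?_, fun h => ?_⟩
  · have h1 := (B.θ_V (k * sK B pf * k⁻¹)
      ((mem_normalizer_iff.1 h _).1 (σ_mem_V B pf_mem))).1
    rwa [map_mul, map_mul, map_inv, θ_sK] at h1
  · have hV : ∀ g, g ∈ B.V ↔ ∀ w ∈ B.V0, g * w = w * g := fun g => ⟨fun hg w hw => by
      obtain ⟨a, ha, h⟩ := (mem_V' B).1 hg
      have h1 := B.V0_comm h hw
      rw [mul_assoc, σ_comm B ha hw, ← mul_assoc, ← mul_assoc] at h1
      exact mul_right_cancel h1, B.cent_V0⟩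
    have key : ∀ m ∈ normalizer (B.V0 : Set G), ∀ g ∈ B.V, m * g * m⁻¹ ∈ B.V := fun m hm g hg =>
      (hV _).2 fun w hw => by
        have h1 := (hV g).1 hg _ ((mem_normalizer_iff.1 (inv_mem hm) w).1 hw)
        calc m * g * m⁻¹ * w = m * (g * (m⁻¹ * w * m⁻¹⁻¹)) * m⁻¹ := by group
          _ = _ := by rw [h1]; group
    have hn := B.norm_V0 k h
    refine mem_normalizer_iff.2 fun g => ⟨key _ hn g, fun hg => ?_⟩
    have := key _ (inv_mem hn) _ hg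
    rwa [show (k : G)⁻¹ * (k * g * (k : G)⁻¹) * (k : G)⁻¹⁻¹ = g by group] at this

/-- `Y` is the preimage of `Stab(4) × L32`, of order `2^15 · 24 · 168`. -/
theorem card_Y : Nat.card B.Y = 2048 * 64512 := by
  let φ : B.K →* S5 := (MonoidHom.fst _ _).comp B.θ
  have hφ : Function.Surjective φ := Prod.fst_surjective.comp B.surj
  have h1 : B.Y.subgroupOf B.K = (MulAction.stabilizer S5 (4 : Fin 5)).comap φ := by
    ext k
    rw [mem_subgroupOf, mem_comap, MulAction.mem_stabilizer_iff]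
    exact ⟨fun h => (B.norm_V k).1 h.2, fun h => ⟨k.2, (B.norm_V k).2 h⟩⟩
  have h2 := (B.Y.subgroupOf B.K).card_mul_index
  rw [Nat.card_congr (subgroupOfEquivOfLe (show B.Y ≤ B.K from inf_le_left)).toEquiv, h1,
    index_comap_of_surjective _ hφ, MulAction.index_stabilizer_of_transitive, Nat.card_fin,
    card_K] at h2
  omega

/-- `a = (θ k).1` fixes 4, so it is a word in `px, ps, pf, pg` (`decide`: `a = φ px^i ps^j`);
`k σ(a)⁻¹` has trivial first component, `lift`, `dec`. -/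
theorem Y_le {Ω : Subgroup G} (hV : B.V ≤ Ω) (hx : B.x ∈ Ω) (hs : B.s ∈ Ω)
    (hr : ∀ v ∈ B.V0, B.ρ v ∈ Ω)
    (hJ : ∀ g : B.K, (B.θ g).1 = 1 → g * B.x = B.x * g → (g : G) ∈ Ω) : B.Y ≤ Ω := by
  intro k hk
  set a := (B.θ ⟨k, hk.1⟩).1 with ha
  have h1 : B.σ a ∈ Ω := by
    obtain ⟨φ, hφ, b, hb, c, hc, e⟩ := FF_word a ((B.norm_V ⟨k, hk.1⟩).1 hk.2)
    rw [e, map_mul, map_mul]
    refine mul_mem (mul_mem (hV (σ_mem_V B hφ)) ?_) ?_
    · simp only [List.mem_cons, List.not_mem_nil, or_false] at hb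
      rcases hb with rfl | rfl | rfl
      · rw [map_one]; exact one_mem _
      · exact hx
      · rw [map_mul]; exact mul_mem hx hx
    · simp only [List.mem_cons, List.not_mem_nil, or_false] at hc
      rcases hc with rfl | rfl
      · rw [map_one]; exact one_mem _
      · exact hs
  have h2 : (B.θ (⟨k, hk.1⟩ * (sK B a)⁻¹)).1 = 1 := by
    rw [map_mul, map_inv, θ_sK]; simp [ha]
  obtain ⟨l, hl, e⟩ := B.lift _ h2
  have h3 := hJ (⟨l, B.L_le hl⟩ * (⟨k, hk.1⟩ * (sK B a)⁻¹)) (by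
    rw [map_mul, (B.ker ⟨l, B.L_le hl⟩).2 hl, one_mul, h2]) e
  have h4 : l ∈ Ω := by
    obtain ⟨v, hv, w, hw, rfl⟩ := B.dec hl
    exact mul_mem (hV (V0_le_V B hv)) (hr w hw)
  have h5 : l * (k * (B.σ a)⁻¹) ∈ Ω := h3
  have := mul_mem (mul_mem (inv_mem h4) h5) h1
  rwa [inv_mul_cancel_left, inv_mul_cancel_right] at this

/-- Both `g σa g⁻¹` and `σa` invert `x` and have the same image under `θ`; `cx`. -/
theorem J_s (g : B.K) (h1 : (B.θ g).1 = 1) (h : g * B.x = B.x * g) :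
    g * B.s * (g : G)⁻¹ * B.s⁻¹ ∈ B.Z ∧ g * B.r * (g : G)⁻¹ * B.r⁻¹ ∈ B.Z ∧
      g * B.p0 * (g : G)⁻¹ * B.p0⁻¹ ∈ B.V0 := by
  refine ⟨J_inv B g h1 h perm_rel.2.2.1, J_inv B g h1 h perm_rel.2.2.2.1,
    B.V_inf_L ?_ (J_aux B g h1 pf)⟩
  have hn := (B.norm_V g).2 (by rw [h1]; rfl)
  exact mul_mem ((mem_normalizer_iff.1 hn _).1 (σ_mem_V B pf_mem)) (inv_mem (σ_mem_V B pf_mem))

/-- For `v ∈ V` with `c v c⁻¹ ∈ N(V)`: `a φ a⁻¹` fixes 4, `a 4 ≠ 4`, `φ ∈ F`, so `φ = 1` (`decide`)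
and `v ∈ V0`. -/
theorem inter {c : G} (hc : c ∈ B.K) (h : c ∉ normalizer (B.V : Set G)) :
    Nat.card (B.V.map (MulAut.conj c).toMonoidHom ⊓ normalizer (B.V : Set G) : Subgroup G) ≤ 512 := by
  rw [← B.card_V0, ← card_map_of_injective (K := B.V0) (f := (MulAut.conj c).toMonoidHom)
    (MulAut.conj c).injective]
  refine card_le_of_le ?_
  rintro _ ⟨⟨v, hv, rfl⟩, hw⟩
  refine ⟨v, ?_, rfl⟩
  have h1 := B.θ_V ⟨v, B.V_le_K hv⟩ hv
  refine h1.2.2 (FF_inter (B.θ ⟨c, hc⟩).1 (fun e => h ((B.norm_V ⟨c, hc⟩).2 e)) _ h1.1 ?_)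
  have h2 := (B.norm_V ((⟨c, hc⟩ : B.K) * ⟨v, B.V_le_K hv⟩ * (⟨c, hc⟩ : B.K)⁻¹)).1
    (show c * v * c⁻¹ ∈ normalizer (B.V : Set G) from hw)
  rwa [map_mul, map_mul, map_inv] at h2

theorem r_not_mem : B.r ∉ normalizer (B.V : Set G) := by
  intro h
  have h1 := (B.norm_V (sK B pr)).1 h
  rw [θ_sK] at h1
  exact px_four.2.1 h1

end Cfsg.Agent.PJ.Base
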