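import Cfsg.Agent.PJ.TabJ
import Cfsg.Agent.PJ.Mod2

/-!
# S3321: `Y` acts on `V` as the trio group
`F b = bw (E u) b`, `f a = F (lin trL a)`.  `Ω = {k | ∃ g ∈ Tr, ∀ a < 2048, k f a k⁻¹ = f (co.act (cd g) a)}`
is a subgroup; `Acts k E A` and `Ind c A` give `k ∈ Ω` (`Acts.conj`).  `act_Y`: apply `Y_le`.
* `V ≤ Ω` with `g = 1`; `x, s, ρ u, ρ u1, ρ u2 ∈ Ω` (`ind_*`).
* `{v | ρ v ∈ Ω}` is a subgroup containing `E0`: `ρ (ξ w) = x⁻¹ (ρ w) x` (`perm_rel`),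
  `ρ z = z ∈ V` (`σ_Z`).
* `act_J`: let `θ1 g = 1`, `g x = x g`.  `g` normalises `V0` (`norm_V0`), and by `J_s`
  `g s g⁻¹ = ζ s`, `g r g⁻¹ = ζ' r`, `g p0 g⁻¹ = v p0`.  `V0 = {F b | b < 512}` (`V0_eq`,
  `mem_closure_iff`; `bw (E0 ++ l) b = bw E0 b` for `b < 512`), `F` is injective on `b < 2048`
  (`inj_of_card`, `card_V`, `V_eq`).  `g u_i g⁻¹ = F a_i` satisfies `w ξw ξξw = 1`, `s w s⁻¹ = w` as
  `u_i` does, so `a_i < 8` (`W0_lt`); they are independent since conjugation is injective (`conj_bw`,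
  `bw_lin`).  `g p0 g⁻¹ = F (512 ^^^ d)`, `d < 8` by `W0_lt'` (`p0 · ξ p0 = ξ ξ p0`, `s p0 = p0 s`).
  `g (ρ w) g⁻¹ = ρ (g w g⁻¹)` for `w ∈ L` (`cen`), and `ρ (F a) F b ρ (F a)⁻¹ = F (Rr a b)` for
  `a < 8` (`act_ρ`).  Hence `Acts g E (Dm a0 a1 a2 d)` (`z_i` are commutators, `p1 = ξ p0`).
  Conjugating `ρ u_i · p1 · (ρ u_i)⁻¹ = F (1097 | 1234 | 1508)` by `g` gives the three equations of
  `tabJ`.
-/

set_option autoImplicit false

namespace Cfsg.Agent.PJ.Base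

open Cfsg Cfsg.Agent.Comp Cfsg.Agent.Spor Cfsg.Agent.Spor.M24C Cfsg.Agent.R24 Subgroup
open scoped commutatorElement

variable {G : Type*} [Group G] [Finite G] {B : Base G} {u : G}

/-- Cocode coordinates on `V`. -/
def f (B : Base G) (u : G) (a : ℕ) : G := bw (B.E u) (lin trL a)

theorem Pi.bw_append {l l' : List G} {b : ℕ} (hb : b < 2 ^ l.length) : bw (l ++ l') b = bw l b := by
  induction l generalizing b with
  | nil => rw [show b = 0 by simpa using hb, bw_zero, bw_zero]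
  | cons c l ih =>
    rw [List.cons_append, bw, bw, ih (by rw [List.length_cons, pow_succ] at hb; omega)]

theorem Pi.mem_V (h : B.Fr u) (g : G) : g ∈ B.V ↔ ∃ a < 2048, bw (B.E u) a = g := by
  rw [h.V_eq, mem_closure_iff h.ea, show (B.E u).length = 11 by simp [E, E0], show 2 ^ 11 = 2048 by norm_num]

theorem Pi.mem_V0 (h : B.Fr u) (g : G) : g ∈ B.V0 ↔ ∃ a < 512, bw (B.E u) a = g := by
  rw [h.V0_eq, mem_closure_iff (E := B.E0 u) fun c hc => ⟨(h.ea c (List.mem_append_left _ hc)).1,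
    fun d hd => (h.ea c (List.mem_append_left _ hc)).2 d (List.mem_append_left _ hd)⟩]
  have l : 2 ^ (B.E0 u).length = 512 := by simp [E0]
  rw [← l]
  exact exists_congr fun a => and_congr_right fun ha => by rw [E, Pi.bw_append ha]

theorem Pi.F_mem (h : B.Fr u) (a : ℕ) : bw (B.E u) a ∈ B.V := by
  rw [h.V_eq]; exact bw_mem (fun c hc => subset_closure hc) a

theorem Pi.comm (h : B.Fr u) {v : G} (hv : v ∈ B.V) (a : ℕ) : v * bw (B.E u) a * v⁻¹ = bw (B.E u) a := by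
  obtain ⟨b, -, rfl⟩ := (Pi.mem_V h v).1 hv
  rw [← bw_xor h.ea, Nat.xor_comm, bw_xor h.ea, mul_inv_cancel_right]

theorem Fr.F_inj (h : B.Fr u) : ∀ a < 2048, ∀ b < 2048, bw (B.E u) a = bw (B.E u) b → a = b :=
  inj_of_card (Pi.mem_V h) B.card_V

theorem Fr.mem_V (h : B.Fr u) (g : G) : g ∈ B.V ↔ ∃ a < 2048, B.f u a = g := by
  rw [Pi.mem_V h]
  exact ⟨fun ⟨b, hb, e⟩ => ⟨_, eB_lt b, by rw [f, tr_eB hb, e]⟩, fun ⟨a, _, e⟩ => ⟨_, tr_lt a, e⟩⟩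

theorem Fr.f_inj (h : B.Fr u) : ∀ a < 2048, ∀ b < 2048, B.f u a = B.f u b → a = b :=
  fun a ha b hb e => by rw [← eB_tr ha, h.F_inj _ (tr_lt a) _ (tr_lt b) e, eB_tr hb]

theorem Fr.f_mul (h : B.Fr u) (a b : ℕ) : B.f u (a ^^^ b) = B.f u a * B.f u b := by
  rw [f, lin_xor, bw_xor h.ea, f, f]

/-- `bw [z1,z2,z3] k = F (64 k)`; `tr_Zl`. -/
theorem Fr.mem_Z (h : B.Fr u) (g : G) : g ∈ B.Z ↔ ∃ a ∈ Zl, B.f u a = g := by
  have s : ∀ c ∈ [B.z1 u, B.z2 u, B.z3 u], c ∈ B.E u := by simp [E, E0]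
  have k : ∀ k < 8, bw [B.z1 u, B.z2 u, B.z3 u] k = bw (B.E u) (64 * k) := fun k hk => by
    interval_cases k <;> simp [bw, E, E0]
  rw [h.Z_eq, mem_closure_iff fun c hc => ⟨(h.ea c (s c hc)).1, fun d hd => (h.ea c (s c hc)).2 d (s d hd)⟩]
  constructor
  · rintro ⟨b, hb, rfl⟩
    replace hb : b < 8 := hb
    exact ⟨_, tr_Zl.2 b hb, by rw [f, tr_eB (by omega), k b hb]⟩
  · rintro ⟨a, ha, rfl⟩
    obtain ⟨b, hb, e⟩ := tr_Zl.1 a ha
    exact ⟨b, hb, by rw [f, e, k b hb]⟩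

theorem Fr.act_of (h : B.Fr u) {k : G} {A : List ℕ} {c : ℕ} (h1 : Acts k (B.E u) A)
    (h2 : Ind c A) : ∀ a < 2048, k * B.f u a * k⁻¹ = B.f u (co.act c a) :=
  fun a ha => by rw [f, h1.conj h.ea, f, h2.2 a ha]

theorem Pi.ρ_mul (B : Base G) (v w : G) : B.ρ (v * w) = B.ρ v * B.ρ w := by simp only [ρ]; group

theorem Pi.cond (h : B.Fr u) {w : G} {A : List ℕ} (h1 : Acts (B.ρ w) (B.E u) A) (a b : ℕ) :
    B.ρ (if a % 2 = 1 then w else 1) * bw (B.E u) b * (B.ρ (if a % 2 = 1 then w else 1))⁻¹ =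
      bw (B.E u) (cond1 a A b) := by
  rw [cond1]
  split_ifs
  exacts [h1.conj h.ea b, by simp [ρ]]

theorem Fr.act_ρ (h : B.Fr u) {a : ℕ} (ha : a < 8) (b : ℕ) :
    B.ρ (bw (B.E u) a) * bw (B.E u) b * (B.ρ (bw (B.E u) a))⁻¹ = bw (B.E u) (Rr a b) := by
  have e : bw (B.E u) a = (if a % 2 = 1 then u else 1) * ((if a / 2 % 2 = 1 then B.u1 u else 1) *
      (if a / 2 / 2 % 2 = 1 then B.u2 u else 1)) := by
    rw [E, E0, List.cons_append, List.cons_append, List.cons_append, bw, bw, bw,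
      show a / 2 / 2 / 2 = 0 by omega, bw_zero, mul_one]
  rw [Rr, ← Pi.cond h h.ar0, ← Pi.cond h h.ar1, ← Pi.cond h h.ar2, e, Pi.ρ_mul, Pi.ρ_mul]
  group

theorem Pi.Ax_lt (b : ℕ) : lin Ax b < 2048 := lin_lt (n := 11) (by decide) b
theorem Pi.As_lt (b : ℕ) : lin As b < 2048 := lin_lt (n := 11) (by decide) b

theorem Pi.xor_lt {a b : ℕ} (ha : a < 2048) (hb : b < 2048) : a ^^^ b < 2048 :=
  Nat.xor_lt_two_pow (n := 11) ha hb

theorem Pi.Rr_lt (a : ℕ) {b : ℕ} (hb : b < 2048) : Rr a b < 2048 := by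
  have k : ∀ (a : ℕ) (A : List ℕ) (b : ℕ), (∀ c ∈ A, c < 2 ^ 11) → b < 2048 → cond1 a A b < 2048 :=
    fun a A b h hb => by
      rw [cond1]
      split_ifs
      exacts [lin_lt h b, hb]
  exact k _ _ _ (by decide) (k _ _ _ (by decide) (k _ _ _ (by decide) hb))

theorem Pi.val (B : Base G) (u : G) : bw (B.E u) 1 = u ∧ bw (B.E u) 2 = B.u1 u ∧ bw (B.E u) 4 = B.u2 u ∧
    bw (B.E u) 512 = B.p0 ∧ bw (B.E u) 1024 = B.p1 := by
  simp [bw, E, E0]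

theorem Fr.act_J (h : B.Fr u) (g : B.K) (h1 : (B.θ g).1 = 1) (hx : g * B.x = B.x * g) :
    ∃ c A, Acts (g : G) (B.E u) A ∧ Ind c A := by
  obtain ⟨j1, j2, j3⟩ := B.J_s g h1 hx
  have nV := mem_normalizer_iff.1 (B.norm_V0 g (by rw [h1]; rfl))
  obtain ⟨g, hg⟩ := g
  dsimp only at hx j1 j2 j3 nV ⊢
  set F := bw (B.E u) with hF
  have fx : ∀ a, B.ξ (F a) = F (lin Ax a) := h.ax.conj h.ea
  have fm : ∀ a b, F (a ^^^ b) = F a * F b := bw_xor h.ea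
  have cξ : ∀ w, g * B.ξ w * g⁻¹ = B.ξ (g * w * g⁻¹) := fun w => by
    rw [ξ, ξ, ← mul_assoc, ← mul_assoc, hx, mul_assoc _ _ g⁻¹, ← mul_inv_rev, hx]; group
  have cx : ∀ {a b}, g * F a * g⁻¹ = F b → g * F (lin Ax a) * g⁻¹ = F (lin Ax b) := fun e => by
    rw [← fx, cξ, e, fx]
  have cm : ∀ {a b a' b'}, g * F a * g⁻¹ = F b → g * F a' * g⁻¹ = F b' →
      g * F (a ^^^ a') * g⁻¹ = F (b ^^^ b') := fun e e' => by rw [fm, fm, ← e, ← e']; group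
  have cs : ∀ {a b}, g * F a * g⁻¹ = F b → b < 2048 → lin As a = a → lin As b = b := fun {a b} e hb e' => by
    refine h.F_inj _ (Pi.As_lt b) _ hb ?_
    rw [← Pi.comm h (M2.V0_le_V B (B.Z_le_V0 j1)) (lin As b), ← h.as.conj h.ea, ← hF, ← e]
    conv_rhs => rw [← e', hF, ← h.as.conj h.ea, ← hF]
    group
  have cρ : ∀ w ∈ B.L, g * B.ρ w * g⁻¹ = B.ρ (g * w * g⁻¹) := fun w hw => by
    have := M2.Z_cen B j2 (B.conj_L (B.σ_mem pr) (B.conj_L hg hw))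
    rw [ρ, ρ, r, ← mul_inv_eq_iff_eq_mul.2 this.symm, r]
    group
  have F0 : F 0 = 1 := bw_zero _
  have st : ∀ b < 8, ∃ a < 8, g * F b * g⁻¹ = F a := fun b hb => by
    obtain ⟨a, ha, e⟩ := (Pi.mem_V0 h _).1 ((nV _).1 ((Pi.mem_V0 h _).2 ⟨b, by omega, rfl⟩))
    have e1 := cm (cm e.symm (cx e.symm)) (cx (cx e.symm))
    rw [(by decide : ∀ b < 8, b ^^^ lin Ax b ^^^ lin Ax (lin Ax b) = 0) b hb, F0, mul_one, mul_inv_cancel,
      ← F0] at e1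
    exact ⟨a, W0_lt a ha (h.F_inj _ (Pi.xor_lt (Pi.xor_lt (by omega) (Pi.Ax_lt _)) (Pi.Ax_lt _)) 0
      (by omega) e1.symm) (cs e.symm (by omega) ((by decide : ∀ b < 8, lin As b = b) b hb)), e.symm⟩
  obtain ⟨a0, l0, e0⟩ := st 1 (by omega)
  obtain ⟨a1, l1, e1⟩ := st 2 (by omega)
  obtain ⟨a2, l2, e2⟩ := st 4 (by omega)
  obtain ⟨u0, u1, u2, p0, p1⟩ : F 1 = u ∧ F 2 = B.u1 u ∧ F 4 = B.u2 u ∧ F 512 = B.p0 ∧ F 1024 = B.p1 :=
    Pi.val B u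
  obtain ⟨d, ld, ed⟩ := (Pi.mem_V0 h _).1 j3
  have e3 : g * F 512 * g⁻¹ = F (512 ^^^ d) := by rw [Nat.xor_comm, fm, p0, hF, ed]; group
  have l3 : 512 ^^^ d < 2048 := Pi.xor_lt (by omega) (by omega)
  have e4 : g * F 1024 * g⁻¹ = F (lin Ax (512 ^^^ d)) := cx e3
  replace ld : d < 8 := W0_lt' d ld (h.F_inj _ (Pi.xor_lt l3 (Pi.Ax_lt _)) _ (Pi.Ax_lt _)
    ((cm e3 e4).symm.trans (cx e4))) (cs e3 l3 (by decide))
  have mL : ∀ a < 8, F a ∈ B.L := fun a ha => ((Pi.mem_V0 h _).2 ⟨a, by omega, rfl⟩).1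
  have cr : ∀ {a a' b b'}, a < 8 → a' < 8 → g * F a * g⁻¹ = F a' → g * F b * g⁻¹ = F b' →
      g * F (Rr a b) * g⁻¹ = F (Rr a' b') := fun {a a' b b'} l l' e e' => by
    rw [hF, ← h.act_ρ l, ← h.act_ρ l', ← hF, ← e, ← e', ← cρ _ (mL a l)]; group
  have zz : ∀ a < 8, ∀ b, ⁅B.ρ (F a), B.ξ (F b)⁆ = F (Bm a b) := fun a l b => by
    rw [commutatorElement_def, fx, hF, h.act_ρ l, Bm, bw_xor h.ea,
      inv_eq_of_mul_eq_one_right (B.V_sq (Pi.F_mem h _))]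
  have cz : ∀ {a a' b b'}, a < 8 → a' < 8 → g * F a * g⁻¹ = F a' → g * F b * g⁻¹ = F b' →
      g * ⁅B.ρ (F a), B.ξ (F b)⁆ * g⁻¹ = F (Bm a' b') := fun {a a' b b'} l l' e e' => by
    rw [zz a l]; exact cm (cr l l' e (cx e')) (cx e')
  have ac : Acts g (B.E u) (Dm a0 a1 a2 d) := by
    have k1 := cz (by omega) l1 e1 e2
    have k2 := cz (by omega) l0 e0 e2
    have k3 := cz (by omega) l0 e0 e1
    have k4 := cξ (F 1)
    have k5 := cξ (F 2)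
    have k6 := cξ (F 4)
    rw [e0, fx a0] at k4
    rw [e1, fx a1] at k5
    rw [e2, fx a2] at k6
    rw [p0] at e3
    rw [p1] at e4
    simp only [u0, u1, u2] at e0 e1 e2 k1 k2 k3 k4 k5 k6
    rw [Acts, ← hF]
    simp only [E, E0, Dm, List.cons_append, List.nil_append, List.map_cons, List.map_nil, z1, z2, z3,
      e0, e1, e2, e3, e4, k1, k2, k3, k4, k5, k6]
  have ac' : ∀ b, g * F b * g⁻¹ = F (lin (Dm a0 a1 a2 d) b) := ac.conj h.ea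
  have lD : ∀ b, lin (Dm a0 a1 a2 d) b < 2048 := lin_lt (n := 11) (by
    have k : ∀ a b, Bm a b < 2 ^ 11 := fun a b => Pi.xor_lt (Pi.Rr_lt _ (Pi.Ax_lt _)) (Pi.Ax_lt _)
    have k' : ∀ a, lin Ax a < 2 ^ 11 := Pi.Ax_lt
    simp only [Dm, List.forall_mem_cons, k, k', List.not_mem_nil, false_imp_iff, implies_true, and_true,
      true_and]
    omega)
  have eq : ∀ {a a'}, a < 8 → a' < 8 → g * F a * g⁻¹ = F a' →
      lin (Dm a0 a1 a2 d) (Rr a 1024) = Rr a' (lin Ax (512 ^^^ d)) := fun l l' e =>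
    h.F_inj _ (lD _) _ (Pi.Rr_lt _ (Pi.Ax_lt _)) ((ac' _).symm.trans (cr l l' e e4))
  obtain ⟨c, hc⟩ := tabJ l0 l1 l2 ld (fun k hk e => by
    have := ac' k
    rw [Dm, lin, lin, lin, show k / 2 / 2 / 2 = 0 by omega, lin_zero] at this
    rw [lin, lin, lin, lin] at e
    rw [e, F0, mul_inv_eq_one, mul_eq_left, ← F0] at this
    exact h.F_inj k (by omega) 0 (by omega) this) (eq (by omega) l0 e0) (eq (by omega) l1 e1)
    (eq (by omega) l2 e2)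
  exact ⟨c, _, ac, hc⟩

theorem Fr.act_Y (h : B.Fr u) {k : G} (hk : k ∈ B.Y) :
    ∃ g ∈ Tr, ∀ a < 2048, k * B.f u a * k⁻¹ = B.f u (co.act (cd g) a) := by
  let Ω : Subgroup G :=
    { carrier := {k | ∃ g ∈ Tr, ∀ a < 2048, k * B.f u a * k⁻¹ = B.f u (co.act (cd g) a)}
      one_mem' := ⟨1, one_mem _, fun a ha => by rw [co.act_one ha]; group⟩
      mul_mem' := fun ⟨g, hg, e⟩ ⟨g', hg', e'⟩ => ⟨g * g', mul_mem hg hg', fun a ha => by
        rw [co.act_mul g g' ha, ← e _ (co.act_lt _ _), ← e' a ha]; group⟩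
      inv_mem' := fun ⟨g, hg, e⟩ => ⟨g⁻¹, inv_mem hg, fun a ha => by
        have := e _ (co.act_lt (cd g⁻¹) a)
        rw [← co.act_mul g g⁻¹ ha, mul_inv_cancel, co.act_one ha] at this
        rw [← this]; group⟩ }
  have of : ∀ {k A c}, Acts k (B.E u) A → Ind c A → k ∈ Ω := fun {k A c} h1 h2 => by
    obtain ⟨g, hg, rfl⟩ := h2.1
    exact ⟨g, hg, h.act_of h1 h2⟩
  have hV : B.V ≤ Ω := fun v hv => ⟨1, one_mem _, fun a ha => by rw [co.act_one ha]; exact Pi.comm h hv _⟩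
  have hx := of h.ax ind_x
  refine B.Y_le hV hx (of h.as ind_s) (fun v hv => ?_) (fun g h1 h2 => ?_) hk
  · have k : ∀ w, B.ρ w ∈ Ω → B.ρ (B.ξ w) ∈ Ω := fun w hw => by
      have e : B.r * B.x * B.r⁻¹ = B.x⁻¹ := by
        rw [r, x, ← map_inv, ← map_inv, ← map_mul, ← map_mul, perm_rel.2.2.2.1]
      have : B.ρ (B.ξ w) = (B.r * B.x * B.r⁻¹) * B.ρ w * (B.r * B.x * B.r⁻¹)⁻¹ := by
        simp only [ρ, ξ]; group
      rw [this, e]
      exact mul_mem (mul_mem (inv_mem hx) hw) (inv_mem (inv_mem hx))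
    have kz : ∀ z ∈ [B.z1 u, B.z2 u, B.z3 u], B.ρ z ∈ Ω := fun z hz => by
      have hz' : z ∈ B.Z := by rw [h.Z_eq]; exact subset_closure hz
      rw [ρ, r, B.σ_Z pr hz', mul_inv_cancel_right]
      exact hV (M2.V0_le_V B (B.Z_le_V0 hz'))
    have r0 := of h.ar0 ind_r0
    have r1 := of h.ar1 ind_r1
    have r2 := of h.ar2 ind_r2
    rw [h.V0_eq] at hv
    refine (closure_le (Ω.comap (MulAut.conj B.r).toMonoidHom)).2 (fun c hc => ?_) hv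
    simp only [E0, Set.mem_ofPred_eq, List.mem_cons, List.not_mem_nil, or_false] at hc
    rcases hc with rfl | rfl | rfl | rfl | rfl | rfl | rfl | rfl | rfl
    exacts [r0, r1, r2, k _ r0, k _ r1, k _ r2, kz _ (by simp), kz _ (by simp), kz _ (by simp)]
  · obtain ⟨c, A, a, b⟩ := h.act_J g h1 h2
    exact of a b

end Cfsg.Agent.PJ.Base
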